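import Groth.Agent.Gaga.H976.Defs

/-!
# Stalks of the direct image of a sheaf supported on a closed set

`f : T1 ⟶ T` continuous, `N` a sheaf of modules on `T1` whose stalks vanish outside the closed set
`S`, and `f` closed on `S`.

* `pushSt_bijective`: if `y` is the only point of `S` in its fibre (or the fibre does not meet `S`)
  then `(f_* N)_{f y} ≅ N_y`;
* `push_stalk_subsingleton`: if the fibre over `x` does not meet `S` then `(f_* N)_x = 0`.
-/

set_option autoImplicit false

open CategoryTheory AlgebraicGeometry TopologicalSpace Opposite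

noncomputable section

namespace Groth.Agent.Gaga.H127.PushStalk

open Groth.Agent.Gaga.H975.ModSec Groth.Agent.Gaga.H986.Stalk Groth.Agent.Gaga.H986.Pull
open Groth.Agent.Gaga.H976.Defs

variable {T T1 : TopCat.{0}} {f : T1 ⟶ T} {R : TopCat.Sheaf CommRingCat.{0} T}
  {R1 : TopCat.Sheaf CommRingCat.{0} T1}

/-- A section whose germs vanish at the points of `S` is zero. -/
lemma eq_zero_of_forall_mem (N : Mod R1) {S : Set T1} (hS : ∀ y ∉ S, Subsingleton (St N y))
    {V : Opens T1} (s : Sec N V) (h : ∀ y (hy : y ∈ V), y ∈ S → gm N y V hy s = 0) : s = 0 := by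
  refine eq_of_gm N fun y hy => ?_
  rw [map_zero]
  by_cases hyS : y ∈ S
  · exact h y hy hyS
  · have := hS y hyS
    exact Subsingleton.elim _ _

/-- Neighbourhoods of the fibre. -/
lemma exists_open {S : Set T1} (hf : ∀ C : Set T1, IsClosed C → IsClosed (f '' (C ∩ S))) {x : T}
    (W : Opens T1) (hW : ∀ y' ∈ S, f y' = x → y' ∈ W) :
    ∃ V : Opens T, x ∈ V ∧ ∀ y' ∈ S, f y' ∈ V → y' ∈ W := by
  refine ⟨⟨(f '' ((W : Set T1)ᶜ ∩ S))ᶜ, (hf _ W.isOpen.isClosed_compl).isOpen_compl⟩, ?_, ?_⟩
  · rintro ⟨y', ⟨hy'W, hy'S⟩, hy'⟩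
    exact hy'W (hW y' hy'S hy')
  · intro y' hy'S hy'
    by_contra hcon
    exact hy' ⟨y', ⟨hcon, hy'S⟩, rfl⟩

variable [(Opens.map f).IsContinuous (Opens.grothendieckTopology T)
    (Opens.grothendieckTopology T1)]
  (φ : ringSheaf R ⟶ ((Opens.map f).sheafPushforwardContinuous RingCat.{0}
    (Opens.grothendieckTopology T) (Opens.grothendieckTopology T1)).obj (ringSheaf R1))

/-- [LB1] Stalks of the direct image. -/
theorem pushSt_bijective (N : Mod R1) (S : Set T1) (hSc : IsClosed S)
    (hS : ∀ y ∉ S, Subsingleton (St N y))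
    (hf : ∀ C : Set T1, IsClosed C → IsClosed (f '' (C ∩ S))) (y : T1)
    (hy : ∀ y' ∈ S, f y' = f y → y' = y) : Function.Bijective (pushSt φ N y) := by
  constructor
  · rw [injective_iff_map_eq_zero]
    intro t ht
    obtain ⟨V, hV, s, rfl⟩ := exists_gm _ _ t
    rw [pushSt_gm] at ht
    obtain ⟨W, hyW, hW, e⟩ := exists_res_eq_zero N _ ht
    obtain ⟨V', hyV', hV'⟩ := exists_open (f := f) hf (x := f y) W (fun y' hy'S hy' => by
      rw [hy y' hy'S hy']; exact hyW)
    have h1 : res N (pre_mono f (inf_le_left : V ⊓ V' ≤ V)) (ofPush φ s) = 0 := by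
      refine eq_zero_of_forall_mem N hS _ fun y' hy' hy'S => ?_
      have hy'W : y' ∈ W := hV' y' hy'S hy'.2
      rw [gm_res, ← gm_res N y' hW hy'W, e, map_zero]
    have h2 : res _ (inf_le_left : V ⊓ V' ≤ V) s = 0 := h1
    rw [← gm_res _ _ (inf_le_left : V ⊓ V' ≤ V) ⟨hV, hyV'⟩, h2, map_zero]
  · intro t
    obtain ⟨W, hyW, m, rfl⟩ := exists_gm N y t
    obtain ⟨V, hyV, hV⟩ := exists_open (f := f) hf (x := f y) W (fun y' hy'S hy' => by
      rw [hy y' hy'S hy']; exact hyW)
    let U : Bool → Opens T1 := fun b => cond b (W ⊓ pre f V) (⟨Sᶜ, hSc.isOpen_compl⟩ ⊓ pre f V)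
    have hU : ∀ b, U b ≤ pre f V := by
      rintro (_ | _)
      · exact inf_le_right
      · exact inf_le_right
    have hc : pre f V ≤ ⨆ b, U b := by
      intro y' hy'
      rw [Opens.mem_iSup]
      by_cases hy'S : y' ∈ S
      · exact ⟨true, hV y' hy'S hy', hy'⟩
      · exact ⟨false, hy'S, hy'⟩
    let s : ∀ b, Sec N (U b) := fun b => match b with
      | true => res N (inf_le_left : W ⊓ pre f V ≤ W) m
      | false => 0
    obtain ⟨t, ht⟩ := exists_glue N U (pre f V) hc hU s (by
      intro i j W' hi hj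
      have key : ∀ (a : Sec N (U true)) (h1 : W' ≤ U true), W' ≤ U false → res N h1 a = 0 := by
        intro a h1 h2
        refine eq_zero_of_forall_mem N hS _ fun y' hy' hy'S => ?_
        exact absurd hy'S (h2 hy').1
      match i, j with
      | true, true => rfl
      | false, false => rfl
      | true, false => rw [key _ hi hj]; exact (map_zero _).symm
      | false, true => rw [key _ hj hi]; exact (map_zero _))
    refine ⟨gm _ (f y) V hyV (toPush φ t), ?_⟩
    rw [pushSt_gm, ofPush_toPush]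
    have h1 : y ∈ U true := ⟨hyW, hyV⟩
    rw [← gm_res N y (hU true) h1, ht true]
    exact gm_res N y _ _ m

/-- [LB2] Vanishing of the stalks of the direct image. -/
theorem push_stalk_subsingleton (N : Mod R1) (S : Set T1) (hS : ∀ y ∉ S, Subsingleton (St N y))
    (hf : ∀ C : Set T1, IsClosed C → IsClosed (f '' (C ∩ S))) (x : T)
    (hx : ∀ y ∈ S, f y ≠ x) : Subsingleton (St ((push φ).obj N) x) := by
  obtain ⟨V', hxV', hV'⟩ := exists_open (f := f) hf (x := x) ⊥
    (fun y' hy'S hy' => absurd hy' (hx y' hy'S))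
  have key : ∀ t : St ((push φ).obj N) x, t = 0 := by
    intro t
    obtain ⟨V, hV, s, rfl⟩ := exists_gm _ _ t
    have h1 : res N (pre_mono f (inf_le_left : V ⊓ V' ≤ V)) (ofPush φ s) = 0 := by
      refine eq_zero_of_forall_mem N hS _ fun y' hy' hy'S => ?_
      exact absurd (hV' y' hy'S hy'.2) (fun h => h)
    have h2 : res _ (inf_le_left : V ⊓ V' ≤ V) s = 0 := h1
    rw [← gm_res _ _ (inf_le_left : V ⊓ V' ≤ V) ⟨hV, hxV'⟩, h2, map_zero]
  exact ⟨fun a b => (key a).trans (key b).symm⟩

end Groth.Agent.Gaga.H127.PushStalk
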